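import Cfsg.Agent.H1.D4.Ord

/-!
# S4311, box C1 (helper1)
-/

set_option autoImplicit false
set_option linter.unusedSectionVars false

namespace Cfsg.Agent.H1.D4

open Module QuadraticMap Cfsg.Agent.H167.OP Cfsg.Agent.H170.HL Cfsg.Agent.H170.HL.OmRow Cfsg.Agent.H556.Om
open Cfsg Subgroup Cfsg.Agent.H485.RV Cfsg.Agent.H561.RV Cfsg.Agent.H561.D4

variable {F : Type} [Field F] {ι : Type} [Fintype ι] [DecidableEq ι] {Q : QuadraticForm F (ι → F)}
  {E : Fin 2 × A4 → ι → F} {H : Subgroup (Cfsg.Omega F (⇑Q))}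

theorem z_mem_PM (h2 : (2 : F) ≠ 0) (hF : Frame (polarBilin Q) E) {z : Cfsg.Omega F (⇑Q)} (hz : IsZ Q E z) :
    z ∈ PM h2 hF :=
  ⟨_, 1, fun j => by
    simp only [s0]
    split_ifs <;> norm_num, PP.one_mem, hz⟩

theorem comm_one_aux {G X : Type*} [Group G] [Group X] (f : G →* X) {g y : G} (h : f y * f g = f g * f y) :
    f (g * y * g⁻¹ * y⁻¹) = 1 := by
  rw [map_mul, map_mul, map_mul, map_inv, map_inv, ← h, mul_inv_cancel_right, mul_inv_cancel]

theorem mul_one_aux {G X : Type*} [Group G] [Group X] (f : G →* X) {g y : G} (h : f (g * y⁻¹) = 1) :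
    f g = f y := by
  rwa [map_mul, map_inv, mul_inv_eq_one] at h

open scoped Classical in
/-- an element of order three with small commutator space -/
theorem exists_x [Finite F] (h : HD H) (hF : Frame (polarBilin Q) E) :
    ∃ x : H, x ^ 3 = 1 ∧ finrank F (rg (rH H) x) ≤ 2 ∧ fH H x ≠ 1 := by
  have hfin : Finite (Cfsg.Omega F (⇑Q)) := inferInstance
  have h2 := h.q8.two
  obtain ⟨a, ha⟩ : ∃ a : Fin 2 × A4, a = (0, 0, 0) := ⟨_, rfl⟩
  obtain ⟨b, hb⟩ : ∃ b : Fin 2 × A4, b = (0, 0, 1) := ⟨_, rfl⟩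
  obtain ⟨c, hc⟩ : ∃ c : Fin 2 × A4, c = (0, 1, 0) := ⟨_, rfl⟩
  have hab : a ≠ b := by rw [ha, hb]; decide
  have hac : a ≠ c := by rw [ha, hc]; decide
  have hbc : b ≠ c := by rw [hb, hc]; decide
  have h3 := Equiv.Perm.isThreeCycle_swap_mul_swap_same hab hac hbc
  obtain ⟨σ, hσ⟩ : ∃ σ, σ = Equiv.swap a b * Equiv.swap a c := ⟨_, rfl⟩
  rw [← hσ] at h3
  have hσ3 : σ ^ 3 = 1 := by rw [← h3.orderOf, pow_orderOf_eq_one]
  obtain ⟨g, hg⟩ := H556.Om.exists_perm h.q8.gq h2 hF h3.sign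
  have hg3 : g ^ 3 = 1 := by
    apply rep_inj (Q := Q)
    rw [pow_succ, pow_two, map_mul, map_mul, hg, mono_mul hF h2, mono_mul hF h2, map_one]
    refine mono_one hF h2 (fun j => by simp) fun j => ?_
    have h4 := congrArg (fun τ : Equiv.Perm _ => τ j) hσ3
    exact h4
  have hσa : σ a = c := by
    rw [hσ, Equiv.Perm.mul_apply, Equiv.swap_apply_left, Equiv.swap_apply_of_ne_of_ne hac.symm hbc.symm]
  have hσc : σ c = b := by
    rw [hσ, Equiv.Perm.mul_apply, Equiv.swap_apply_right, Equiv.swap_apply_left]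
  have hσb : σ b = a := by
    rw [hσ, Equiv.Perm.mul_apply, Equiv.swap_apply_of_ne_of_ne hab.symm hbc, Equiv.swap_apply_right]
  have hσo : ∀ j, j ≠ a → j ≠ b → j ≠ c → σ j = j := by
    intro j h1 h2 h3
    rw [hσ, Equiv.Perm.mul_apply, Equiv.swap_apply_of_ne_of_ne h1 h3, Equiv.swap_apply_of_ne_of_ne h1 h2]
  -- conjugate into `H`
  obtain ⟨d, hd⟩ := exists_conj_r Nat.prime_three (HD.not_three h) (x := g) (n := 1) (by rw [pow_one, hg3])
  have hx3 : (⟨d * g * d⁻¹, hd⟩ : H) ^ 3 = 1 := by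
    apply Subtype.ext
    show (d * g * d⁻¹) ^ 3 = 1
    rw [conj_pow, hg3, mul_one, mul_inv_cancel]
  refine ⟨⟨d * g * d⁻¹, hd⟩, hx3, ?_, ?_⟩
  · have hsub : rg (rH H) (⟨d * g * d⁻¹, hd⟩ : H) ≤
        Submodule.span F {rep (inc (⇑Q)) d (E b - E a), rep (inc (⇑Q)) d (E c - E b)} := by
      intro u hu
      obtain ⟨v, rfl⟩ := mem_rg.1 hu
      obtain ⟨w, hw⟩ : ∃ w, w = rep (inc (⇑Q)) d⁻¹ v := ⟨_, rfl⟩
      have hv : v = rep (inc (⇑Q)) d w := by rw [hw, inv_rep]
      have h5 : rH H (⟨d * g * d⁻¹, hd⟩ : H) v - v = rep (inc (⇑Q)) d (rep (inc (⇑Q)) g w - w) := by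
        rw [rH_apply, map_sub, ← hv]
        show rep (inc (⇑Q)) (d * g * d⁻¹) v - v = _
        rw [map_mul, map_mul, Module.End.mul_apply, Module.End.mul_apply, ← hw]
      rw [h5]
      have h6 : rep (inc (⇑Q)) g w - w ∈ Submodule.span F {E b - E a, E c - E b} := by
        rw [hg, mono_apply, add_sub_cancel_left]
        refine Submodule.sum_mem _ fun j _ => Submodule.smul_mem _ _ (Submodule.smul_mem _ _ ?_)
        rw [one_smul]
        have m1 : E b - E a ∈ Submodule.span F {E b - E a, E c - E b} := Submodule.subset_span (Or.inl rfl)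
        have m2 : E c - E b ∈ Submodule.span F {E b - E a, E c - E b} := Submodule.subset_span (Or.inr rfl)
        by_cases e1 : j = a
        · rw [e1, hσa]
          have := Submodule.add_mem _ m1 m2
          have h7 : E b - E a + (E c - E b) = E c - E a := by abel
          rwa [h7] at this
        · by_cases e2 : j = b
          · rw [e2, hσb]
            have := Submodule.neg_mem _ m1
            rwa [neg_sub] at this
          · by_cases e3 : j = c
            · rw [e3, hσc]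
              have := Submodule.neg_mem _ m2
              rwa [neg_sub] at this
            · rw [hσo j e1 e2 e3, sub_self]
              exact Submodule.zero_mem _
      have h8 := Submodule.mem_map_of_mem (f := rep (inc (⇑Q)) d) h6
      rw [Submodule.map_span, Set.image_pair] at h8
      exact h8
    refine (Submodule.finrank_mono hsub).trans ?_
    have h9 := finrank_span_finset_le_card (R := F)
      ({rep (inc (⇑Q)) d (E b - E a), rep (inc (⇑Q)) d (E c - E b)} : Finset (ι → F))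
    rw [Finset.coe_pair] at h9
    exact h9.trans Finset.card_le_two
  · intro h1
    rw [(cxH h).ker] at h1
    have key : ∀ v, rH H ((⟨d * g * d⁻¹, hd⟩ : H) ^ 3) v = v := fun v => by rw [hx3, map_one, Module.End.one_apply]
    have hE : ∀ s : F, (∀ v, rep (inc (⇑Q)) (d * g * d⁻¹) v = s • v) → False := by
      intro s hs
      have h5 := hs (rep (inc (⇑Q)) d (E a))
      rw [map_mul, map_mul, Module.End.mul_apply, Module.End.mul_apply, H485.RV.rep_inv, hg, mono_e hF h2, one_smul, hσa,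
        ← map_smul] at h5
      have h6 : E c = s • E a := by
        have := congrArg (rep (inc (⇑Q)) d⁻¹) h5
        rwa [H485.RV.rep_inv, H485.RV.rep_inv] at this
      have h7 := hF.form c c
      rw [if_pos rfl] at h7
      nth_rewrite 2 [h6] at h7
      rw [map_smul, hF.form, if_neg hac.symm, smul_zero] at h7
      exact h2 h7.symm
    rcases h1 with h1 | h1
    · exact hE 1 fun v => by rw [one_smul]; exact h1 v
    · exact hE (-1) fun v => by rw [neg_one_smul]; exact h1 v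

set_option maxHeartbeats 2000000 in
/-- **BOX C1** -/
theorem boxC1 [Finite F] (hZ : BoxZ Q) : BoxC1 Q := by
  intro H h hn
  have hfin : Finite (Cfsg.Omega F (⇑Q)) := inferInstance
  obtain ⟨E, hF, hP⟩ := exists_frameH h
  obtain ⟨x, hx3, hxr, hx1⟩ := exists_x h hF
  have hX : Nontrivial (Xg H) := ⟨fH H x, 1, hx1⟩
  obtain ⟨⟨z, hz⟩, hzz⟩ := hZ h.q8 E hF
  have hzP := z_mem_PM h.q8.two hF hz
  let P₀ : Subgroup H := (PM h.q8.two hF).subgroupOf H
  have hP₀ : IsPGroup 2 P₀ := (PM_isPGroup h.q8.two hF).of_equiv (Subgroup.subgroupOfEquivOfLe hP).symm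
  have hz₀ : ∀ s : Xg H, (∀ y ∈ P₀.map (fH H), y * s = s * y) → s = 1 ∨ s = fH H ⟨z, hP hzP⟩ := by
    intro s hs
    obtain ⟨g, rfl⟩ := (cxH h).surj s
    have h1 : ∀ y ∈ PM h.q8.two hF, (g : Cfsg.Omega F (⇑Q)) * y * (g : Cfsg.Omega F (⇑Q))⁻¹ * y⁻¹ ∈
        Subgroup.center (Cfsg.Omega F (⇑Q)) := by
      intro y hy
      obtain ⟨y', hy'⟩ : ∃ y' : H, (y' : Cfsg.Omega F (⇑Q)) = y := ⟨⟨y, hP hy⟩, rfl⟩
      have hyP : y' ∈ P₀ := by
        rw [Subgroup.mem_subgroupOf, hy']
        exact hy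
      have h3 := hs (fH H y') (Subgroup.mem_map_of_mem _ hyP)
      have h4 : fH H (g * y' * g⁻¹ * y'⁻¹) = 1 := comm_one_aux _ h3
      have h5 := (fH_one _).1 h4
      rw [Subgroup.coe_mul, Subgroup.coe_mul, Subgroup.coe_mul, Subgroup.coe_inv, Subgroup.coe_inv, hy'] at h5
      exact h5
    rcases hzz z g hz h1 with h3 | h3
    · exact Or.inl ((fH_one g).2 h3)
    · right
      have h4 : fH H (g * (⟨z, hP hzP⟩ : H)⁻¹) = 1 := by
        rw [fH_one, Subgroup.coe_mul, Subgroup.coe_inv]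
        exact h3
      exact mul_one_aux _ h4
  obtain ⟨N, s, hS, k, hk⟩ := exists_socle hX (hP₀.map (fH H)) hz₀ (hO h hn)
  have hk4 : ¬ 4 ≤ s.ncard := fun h4 => (cxH h).le_two hS h4
  have hk2 : s.ncard ≠ 2 := fun h2 => no_two (cxH h) hS h2 (frH h hF hP) hx3 hxr hx1
  have hk1 : s.ncard = 1 := by
    rcases k with _ | _ | k
    · rw [hk, pow_zero]
    · exact absurd (by rw [hk]; norm_num) hk2
    · exfalso
      apply hk4
      rw [hk, pow_add]
      have : 1 ≤ 2 ^ k := Nat.one_le_two_pow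
      omega
  obtain ⟨T, rfl⟩ := Set.ncard_eq_one.1 hk1
  have hTN : T = N := by rw [← hS.sup, sSup_singleton]
  subst hTN
  refine ⟨T, hS.nor, hS.simple T rfl, ?_, hS.cent⟩
  intro hc
  obtain ⟨t, ht⟩ := @exists_ne T (hS.simple T rfl).toNontrivial 1
  apply ht
  apply Subtype.ext
  refine hS.cen T rfl t t.2 fun u hu => ?_
  exact congrArg Subtype.val (hc.1.1 t ⟨u, hu⟩)

end Cfsg.Agent.H1.D4
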