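import Cfsg.Agent.H1.D4.Cx

/-!
# S4311, box C1: two components are impossible (helper1)
-/

set_option autoImplicit false
set_option linter.unusedSectionVars false

namespace Cfsg.Agent.H1.D4

open Module Subgroup Cfsg.Agent.Lib.MinNormal Cfsg.Agent.Lib.MinNormalNonabelian

section perm

variable {X : Type*} [Group X] [Finite X] {N T₁ T₂ : Subgroup X}

theorem map_inj {x : X} {S T : Subgroup X} (h : S.map (MulAut.conj x).toMonoidHom = T.map (MulAut.conj x).toMonoidHom) :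
    S = T := by
  have h1 := congrArg (fun U : Subgroup X => U.map (MulAut.conj x⁻¹).toMonoidHom) h
  simp only [map_conj_map_conj, inv_mul_cancel, map_conj_one] at h1
  exact h1

theorem perm2 (hS : Soc N {T₁, T₂}) (hne : T₁ ≠ T₂) (x : X) :
    (T₁.map (MulAut.conj x).toMonoidHom = T₁ ∧ T₂.map (MulAut.conj x).toMonoidHom = T₂) ∨
    (T₁.map (MulAut.conj x).toMonoidHom = T₂ ∧ T₂.map (MulAut.conj x).toMonoidHom = T₁) := by
  have h1 := hS.map T₁ (Or.inl rfl) x
  have h2 := hS.map T₂ (Or.inr rfl) x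
  rcases h1 with h1 | h1 <;> rcases h2 with h2 | h2
  · exact absurd (map_inj (h1.trans h2.symm)) hne
  · exact Or.inl ⟨h1, h2⟩
  · exact Or.inr ⟨h1, h2⟩
  · have h3 : T₂.map (MulAut.conj x).toMonoidHom = T₂ := h2
    have h4 : T₁.map (MulAut.conj x).toMonoidHom = T₂ := h1
    exact absurd (map_inj (h4.trans h3.symm)) hne

/-- an element of order three fixes both -/
theorem perm3 (hS : Soc N {T₁, T₂}) (hne : T₁ ≠ T₂) {x : X} (hx : x ^ 3 = 1) :
    T₁.map (MulAut.conj x).toMonoidHom = T₁ ∧ T₂.map (MulAut.conj x).toMonoidHom = T₂ := by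
  rcases perm2 hS hne x with h | ⟨h1, h2⟩
  · exact h
  · exfalso
    have h3 : T₁.map (MulAut.conj (x ^ 3)).toMonoidHom = T₂ := by
      rw [pow_succ, pow_two, ← map_conj_map_conj, h1, ← map_conj_map_conj, h2, h1]
    rw [hx, map_conj_one] at h3
    exact hne h3

end perm

variable {F : Type*} [Field F] {V : Type*} [AddCommGroup V] [Module F V] {G : Type*} [Group G] {X : Type*} [Group X]
  [Finite X] {ρ : Representation F G V} {B : LinearMap.BilinForm F V} {f : G →* X} {N T₁ T₂ : Subgroup X}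

theorem kt_perm (hS : Soc N {T₁, T₂}) (hne : T₁ ≠ T₂) (g : G) :
    ((∀ k ∈ kt f T₁, g * k * g⁻¹ ∈ kt f T₁) ∧ ∀ k ∈ kt f T₂, g * k * g⁻¹ ∈ kt f T₂) ∨
    ((∀ k ∈ kt f T₁, g * k * g⁻¹ ∈ kt f T₂) ∧ ∀ k ∈ kt f T₂, g * k * g⁻¹ ∈ kt f T₁) := by
  have key : ∀ {S T : Subgroup X}, S.map (MulAut.conj (f g)).toMonoidHom = T → ∀ k ∈ kt f S, g * k * g⁻¹ ∈ kt f T :=
    fun h => kt_conj fun s hs => by rw [← h]; exact ⟨s, hs, rfl⟩
  rcases perm2 hS hne (f g) with ⟨h1, h2⟩ | ⟨h1, h2⟩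
  · exact Or.inl ⟨key h1, key h2⟩
  · exact Or.inr ⟨key h1, key h2⟩

/-- the hypotheses about the frame -/
structure Fr (ρ : Representation F G V) (B : LinearMap.BilinForm F V) {J : Type*} [DecidableEq J] (e : J → V) :
    Prop where
  form : ∀ i j, B (e i) (e j) = if i = j then 2 else 0
  sp : ∀ v, (∀ j, B (e j) v = 0) → v = 0
  t : ∀ j k, j ≠ k → ∃ t : G, ∀ v, ρ t v = v - B (e j) v • e j - B (e k) v • e k
  tr : ∀ i j, ∃ g : G, ρ g (e i) = e j
  third : ∀ j k : J, ∃ l, l ≠ j ∧ l ≠ k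

section frame

variable {J : Type*} [Fintype J] [DecidableEq J] {e : J → V}

/-- subspaces invariant under the sign changes -/
theorem Fr.mem (h : Fr ρ B e) (h2 : (2 : F) ≠ 0) {M : Submodule F V}
    (hM : ∀ j k, j ≠ k → ∀ v ∈ M, B (e j) v • e j + B (e k) v • e k ∈ M) {v : V} (hv : v ∈ M) (j : J) :
    B (e j) v • e j ∈ M := by
  obtain ⟨k, hk, -⟩ := h.third j j
  obtain ⟨l, hl, hl'⟩ := h.third j k
  have h1 := hM j k hk.symm v hv
  have h3 := hM j l hl.symm _ h1
  rw [map_add, map_add, map_smul, map_smul, map_smul, map_smul, h.form, h.form, h.form, h.form, if_pos rfl,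
    if_neg hk.symm, if_neg hl, if_neg hl'] at h3
  have h4 := M.smul_mem (2 : F)⁻¹ h3
  simp only [smul_eq_mul, mul_zero, add_zero, zero_smul] at h4
  rw [smul_smul, mul_comm _ (2 : F), inv_mul_cancel_left₀ h2] at h4
  exact h4

theorem Fr.exists_mem (h : Fr ρ B e) (h2 : (2 : F) ≠ 0) {M : Submodule F V}
    (hM : ∀ j k, j ≠ k → ∀ v ∈ M, B (e j) v • e j + B (e k) v • e k ∈ M) (h0 : M ≠ ⊥) : ∃ j, e j ∈ M := by
  obtain ⟨v, hv, hv0⟩ := Submodule.exists_mem_ne_zero_of_ne_bot h0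
  by_contra hcon
  push Not at hcon
  apply hv0
  refine h.sp v fun j => ?_
  by_contra hj
  apply hcon j
  have h1 := M.smul_mem (B (e j) v)⁻¹ (h.mem h2 hM hv j)
  rwa [smul_smul, inv_mul_cancel₀ hj, one_smul] at h1

theorem Fr.expand (h : Fr ρ B e) (h2 : (2 : F) ≠ 0) (v : V) : v = ∑ j, ((2 : F)⁻¹ * B (e j) v) • e j := by
  rw [← sub_eq_zero]
  refine h.sp _ fun i => ?_
  rw [map_sub, map_sum]
  simp only [map_smul, h.form, smul_eq_mul]
  rw [Finset.sum_eq_single i]
  · rw [if_pos rfl, mul_comm, mul_inv_cancel_left₀ h2, sub_self]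
  · intro j _ hj
    rw [if_neg hj.symm, mul_zero]
  · intro hi
    exact absurd (Finset.mem_univ i) hi

theorem Fr.irr (h : Fr ρ B e) (h2 : (2 : F) ≠ 0) {M : Submodule F V} (hM : ∀ g : G, ∀ v ∈ M, ρ g v ∈ M) (h0 : M ≠ ⊥) :
    M = ⊤ := by
  obtain ⟨i, hi⟩ := h.exists_mem h2 (fun j k hjk v hv => by
    obtain ⟨t, ht⟩ := h.t j k hjk
    have h1 := M.sub_mem hv (hM t v hv)
    rw [ht] at h1
    have h3 : v - (v - B (e j) v • e j - B (e k) v • e k) = B (e j) v • e j + B (e k) v • e k := by abel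
    rwa [h3] at h1) h0
  rw [eq_top_iff]
  intro v _
  rw [h.expand h2 v]
  refine Submodule.sum_mem _ fun j _ => M.smul_mem _ ?_
  obtain ⟨g, hg⟩ := h.tr i j
  rw [← hg]
  exact hM g _ hi

end frame

/-- members of the socle and commuting elements -/
theorem Soc.comm_one (hS : Soc N {T₁, T₂}) {x : X} (h1 : ∀ t ∈ T₁, x * t = t * x) (h2 : ∀ t ∈ T₂, x * t = t * x) :
    x = 1 := by
  apply hS.cent
  have h3 : N ≤ Subgroup.centralizer {x} := by
    rw [← hS.sup]
    refine sSup_le ?_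
    rintro U (rfl | hU) t ht
    · rw [Subgroup.mem_centralizer_iff]
      intro y hy
      rw [Set.mem_singleton_iff.1 hy]
      exact h1 t ht
    · rw [Subgroup.mem_centralizer_iff]
      intro y hy
      rw [Set.mem_singleton_iff.1 hy]
      rw [Set.mem_singleton_iff.1 hU] at ht
      exact h2 t ht
  intro n hn
  have h4 := h3 hn
  rw [Subgroup.mem_centralizer_iff] at h4
  exact h4 x rfl

section final

variable {J : Type*} [Fintype J] [DecidableEq J] {e : J → V}

theorem Fr.linInd (he : Fr ρ B e) (h2 : (2 : F) ≠ 0) (s : Finset J) : LinearIndependent F (fun j : s => e j) := by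
  rw [Fintype.linearIndependent_iff]
  intro c hc i
  have h1 : B (e i) (∑ j : s, c j • e j) = 0 := by rw [hc, map_zero]
  rw [map_sum, Finset.sum_eq_single i] at h1
  · rw [map_smul, he.form, if_pos rfl, smul_eq_mul] at h1
    exact (mul_eq_zero.1 h1).resolve_right h2
  · intro j _ hj
    rw [map_smul, he.form, if_neg (fun h => hj (Subtype.ext h.symm)), smul_zero]
  · intro hi
    exact absurd (Finset.mem_univ i) hi

/-- the element `-1` on a four-dimensional subspace invariant under the sign changes -/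
theorem Fr.exists_neg (he : Fr ρ B e) (h2 : (2 : F) ≠ 0) {A : Submodule F V}
    (hM : ∀ j k, j ≠ k → ∀ v ∈ A, B (e j) v • e j + B (e k) v • e k ∈ A) (hA : finrank F A = 4) :
    ∃ z : G, (∀ v ∈ A, ρ z v = -v) ∧ ∀ v, (∀ a ∈ A, B a v = 0) → ρ z v = v := by
  classical
  obtain ⟨s, hs⟩ : ∃ s : Finset J, ∀ j, j ∈ s ↔ e j ∈ A := ⟨Finset.univ.filter fun j => e j ∈ A, fun j => by
    rw [Finset.mem_filter]; exact ⟨fun h => h.2, fun h => ⟨Finset.mem_univ j, h⟩⟩⟩
  have hz : ∀ v ∈ A, ∀ j, j ∉ s → B (e j) v = 0 := by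
    intro v hv j hj
    by_contra h0
    apply hj
    rw [hs]
    have h1 := A.smul_mem (B (e j) v)⁻¹ (he.mem h2 hM hv j)
    rwa [smul_smul, inv_mul_cancel₀ h0, one_smul] at h1
  have hsum : ∀ v ∈ A, v = ∑ j : s, ((2 : F)⁻¹ * B (e j) v) • e j := by
    intro v hv
    rw [Finset.sum_coe_sort s (fun j => ((2 : F)⁻¹ * B (e j) v) • e j)]
    conv_lhs => rw [he.expand h2 v]
    refine (Finset.sum_subset (Finset.subset_univ s) fun j _ hj => ?_).symm
    rw [hz v hv j hj, mul_zero, zero_smul]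
  have hspan : A = Submodule.span F (Set.range fun j : s => e j) := by
    apply le_antisymm
    · intro v hv
      rw [hsum v hv]
      exact Submodule.sum_mem _ fun j _ => Submodule.smul_mem _ _ (Submodule.subset_span ⟨j, rfl⟩)
    · rw [Submodule.span_le]
      rintro _ ⟨j, rfl⟩
      exact (hs j).1 j.2
  have hcard : s.card = 4 := by
    rw [← hA, hspan, finrank_span_eq_card (he.linInd h2 s), Fintype.card_coe]
  obtain ⟨ε⟩ : Nonempty (Fin 4 ≃ s) := ⟨(s.equivFinOfCardEq hcard).symm⟩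
  have hinj : ∀ a b : Fin 4, a ≠ b → (ε a : J) ≠ ε b := fun a b hab h => hab (ε.injective (Subtype.ext h))
  obtain ⟨t, ht⟩ := he.t (ε 0) (ε 1) (hinj _ _ (by decide))
  obtain ⟨t', ht'⟩ := he.t (ε 2) (ε 3) (hinj _ _ (by decide))
  have hzz : ∀ v, ρ (t * t') v = v - ∑ i : Fin 4, B (e (ε i)) v • e (ε i) := by
    intro v
    have h0 : ∀ i : Fin 4, i ≠ 2 → i ≠ 3 → B (e (ε i)) (ρ t' v) = B (e (ε i)) v := by
      intro i h2 h3
      rw [ht', map_sub, map_sub, map_smul, map_smul, he.form, he.form, if_neg (hinj _ _ h2), if_neg (hinj _ _ h3),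
        smul_zero, smul_zero, sub_zero, sub_zero]
    rw [rho_mul, ht, h0 0 (by decide) (by decide), h0 1 (by decide) (by decide), ht', Fin.sum_univ_four]
    abel
  refine ⟨t * t', fun v hv => ?_, fun v hv => ?_⟩
  · have h1 : ∑ i : Fin 4, B (e (ε i)) v • e (ε i) = (2 : F) • v := by
      rw [Equiv.sum_comp ε (fun j : s => B (e j) v • e j)]
      conv_rhs => rw [hsum v hv, Finset.smul_sum]
      refine Finset.sum_congr rfl fun j _ => ?_
      rw [smul_smul, mul_inv_cancel_left₀ h2]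
    rw [hzz, h1, two_smul]
    abel
  · rw [hzz]
    have h1 : ∑ i : Fin 4, B (e (ε i)) v • e (ε i) = 0 :=
      Finset.sum_eq_zero fun i _ => by rw [hv _ ((hs _).1 (ε i).2), zero_smul]
    rw [h1, sub_zero]

end final

end Cfsg.Agent.H1.D4
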