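import Cfsg.Agent.H1.D4.NoTwo
import Cfsg.Agent.H561.D4.RThree

/-!
# S4311, box C1: the concrete situation (helper1)
-/

set_option autoImplicit false
set_option linter.unusedSectionVars false

namespace Cfsg.Agent.H1.D4

open Module QuadraticMap Cfsg.Agent.H167.OP Cfsg.Agent.H170.HL Cfsg.Agent.H170.HL.OmRow Cfsg.Agent.H556.Om
open Cfsg Subgroup Cfsg.Agent.H485.RV Cfsg.Agent.H561.RV Cfsg.Agent.H561.D4

variable {F : Type} [Field F] {ι : Type} [Fintype ι] [DecidableEq ι] {Q : QuadraticForm F (ι → F)}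
  {E : Fin 2 × A4 → ι → F} {H : Subgroup (Cfsg.Omega F (⇑Q))}

/-- the image in `PΩ` -/
abbrev Xg (H : Subgroup (Cfsg.Omega F (⇑Q))) : Subgroup (Cfsg.Omega F (⇑Q) ⧸ Subgroup.center (Cfsg.Omega F (⇑Q))) :=
  H.map (QuotientGroup.mk' (Subgroup.center (Cfsg.Omega F (⇑Q))))

/-- the projection -/
abbrev fH (H : Subgroup (Cfsg.Omega F (⇑Q))) : H →* Xg H :=
  (QuotientGroup.mk' (Subgroup.center (Cfsg.Omega F (⇑Q)))).subgroupMap H

/-- the representation -/
noncomputable abbrev rH (H : Subgroup (Cfsg.Omega F (⇑Q))) : Representation F H (ι → F) :=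
  (rep (inc (⇑Q))).comp H.subtype

theorem rH_apply (g : H) (v : ι → F) : rH H g v = rep (inc (⇑Q)) (g : Cfsg.Omega F (⇑Q)) v := rfl

theorem fH_one (g : H) : fH H g = 1 ↔ (g : Cfsg.Omega F (⇑Q)) ∈ Subgroup.center (Cfsg.Omega F (⇑Q)) := by
  rw [← QuotientGroup.eq_one_iff]
  constructor
  · intro h
    exact congrArg Subtype.val h
  · intro h
    exact Subtype.ext h

theorem mem_cen (hq : GoodQ Q) [Finite F] (g : Cfsg.Omega F (⇑Q)) : g ∈ Subgroup.center (Cfsg.Omega F (⇑Q)) ↔
    (∀ v, rep (inc (⇑Q)) g v = v) ∨ ∀ v, rep (inc (⇑Q)) g v = -v := by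
  have h1 : g ∈ Subgroup.center (Cfsg.Omega F (⇑Q)) ↔ inc (⇑Q) g = 1 ∨ inc (⇑Q) g = -1 :=
    Cfsg.Agent.LieClassical.OmegaCenter.mem_center_omega_iff Q hq.nd hq.card hq.sing g
  rw [h1]
  constructor
  · rintro (h | h)
    · left
      intro v
      rw [rep_apply, h, Matrix.one_mulVec]
    · right
      intro v
      rw [rep_apply, h, Matrix.neg_mulVec, Matrix.one_mulVec]
  · rintro (h | h)
    · left
      have h3 : g = 1 := rep_inj (LinearMap.ext fun v => by rw [h, map_one, Module.End.one_apply])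
      rw [h3, map_one]
    · right
      ext i j
      have h3 := congrFun (h (Pi.single j 1)) i
      rw [rep_apply, Matrix.mulVec_single_one] at h3
      rw [Matrix.neg_apply, Matrix.one_apply]
      simpa [Pi.single_apply, Matrix.col_apply] using h3

theorem cxH [Finite F] (h : HD H) : Cx (rH H) (polarBilin Q) (fH H) where
  h2 := h.q8.two
  dim := by rw [Module.finrank_fintype_fun_eq_card, h.q8.dim]
  symm := polar_symm
  nd := fun u hu => h.q8.gq.nd.1 u hu
  inv := fun g u v => polar_omega (g : Cfsg.Omega F (⇑Q)) u v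
  surj := MonoidHom.subgroupMap_surjective _ _
  ker := fun g => by rw [fH_one, mem_cen h.q8.gq]; rfl
  inj := fun g hg => Subtype.ext (rep_inj (LinearMap.ext fun v => by
    rw [Subgroup.coe_one, map_one, Module.End.one_apply]
    exact hg v))
  char := h.char

theorem HD.not_two (h : HD H) : ¬ 2 ∣ H.index := fun h1 =>
  Nat.not_coprime_of_dvd_of_dvd (by norm_num) h.two h1 h.hall

theorem HD.not_three (h : HD H) : ¬ 3 ∣ H.index := fun h1 =>
  Nat.not_coprime_of_dvd_of_dvd (by norm_num) h.three h1 h.hall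

/-- a frame whose monomial group lies in `H` -/
theorem exists_frameH [Finite F] (h : HD H) : ∃ (E : Fin 2 × A4 → ι → F) (hF : Frame (polarBilin Q) E),
    PM h.q8.two hF ≤ H := by
  obtain ⟨E, hF⟩ := h.q8.frame
  obtain ⟨g, hg⟩ := exists_conj (HD.not_two h) (PM_isPGroup h.q8.two hF)
  have hF' : Frame (polarBilin Q) (fun j => rep (inc (⇑Q)) g (E j)) := hF.map (polar_omega g)
  refine ⟨_, hF', fun x hx => ?_⟩
  obtain ⟨s, σ, hs, hσ, hx⟩ := hx
  have h1 : g⁻¹ * x * g ∈ PM h.q8.two hF := ⟨s, σ, hs, hσ, conj_mono hx⟩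
  have h3 := hg _ h1
  have h4 : g * (g⁻¹ * x * g) * g⁻¹ = x := by group
  rwa [h4] at h3

theorem PP_trans (i j : Fin 2 × A4) : ∃ τ c, pp τ (fun _ => false) c i = j :=
  ⟨Equiv.swap i.1 j.1, fun _ => i.2 + j.2, by
    obtain ⟨k, a⟩ := i
    obtain ⟨l, b⟩ := j
    rw [pp_apply]
    refine Prod.ext (Equiv.swap_apply_left k l) ?_
    show lin false a + (a + b) = b
    rw [← add_assoc]
    show a + a + b = b
    rw [CharTwo.add_self_eq_zero, zero_add]⟩

theorem mono_sg (h2 : (2 : F) ≠ 0) {j k : Fin 2 × A4} (hjk : j ≠ k) (v : ι → F) :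
    mono (polarBilin Q) E (H556.Om.sg F j k) id v = v - polarBilin Q (E j) v • E j - polarBilin Q (E k) v • E k := by
  rw [mono_apply]
  have h1 : ∀ i, polarBilin Q (E i) v • ((2 : F)⁻¹ • (H556.Om.sg F j k i • E (id i) - E i)) =
      (if i = j then -(polarBilin Q (E j) v • E j) else 0) + if i = k then -(polarBilin Q (E k) v • E k) else 0 := by
    intro i
    simp only [H556.Om.sg, id]
    by_cases h3 : i = j
    · subst h3
      rw [if_pos (Or.inl rfl), if_pos rfl, if_neg hjk, add_zero, neg_one_smul]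
      have h4 : (2 : F)⁻¹ • (-E i - E i) = -E i := by
        have : -E i - E i = (2 : F) • -E i := by rw [two_smul]; abel
        rw [this, smul_smul, inv_mul_cancel₀ h2, one_smul]
      rw [h4, smul_neg]
    · by_cases h5 : i = k
      · subst h5
        rw [if_pos (Or.inr rfl), if_neg h3, if_pos rfl, zero_add, neg_one_smul]
        have h4 : (2 : F)⁻¹ • (-E i - E i) = -E i := by
          have : -E i - E i = (2 : F) • -E i := by rw [two_smul]; abel
          rw [this, smul_smul, inv_mul_cancel₀ h2, one_smul]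
        rw [h4, smul_neg]
      · rw [if_neg (by rintro (h | h); exacts [h3 h, h5 h]), if_neg h3, if_neg h5, one_smul, sub_self, smul_zero, smul_zero,
          add_zero]
  rw [Finset.sum_congr rfl fun i _ => h1 i, Finset.sum_add_distrib, Finset.sum_ite_eq' Finset.univ j,
    Finset.sum_ite_eq' Finset.univ k, if_pos (Finset.mem_univ _), if_pos (Finset.mem_univ _)]
  abel

theorem frH [Finite F] (h : HD H) (hF : Frame (polarBilin Q) E) (hP : PM h.q8.two hF ≤ H) :
    Fr (rH H) (polarBilin Q) E where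
  form := fun i j => hF.form i j
  sp := by
    intro v hv
    have h8 : Fintype.card (Fin 2 × A4) = finrank F (ι → F) := by
      rw [Module.finrank_fintype_fun_eq_card, h.q8.dim]
      rfl
    have h1 : v ∈ Submodule.span F (Set.range E) := by
      rw [(hF.linearIndependent h.q8.two).span_eq_top_of_card_eq_finrank' h8]
      exact Submodule.mem_top
    apply h.q8.gq.nd.1 v
    intro w
    have h2 : w ∈ Submodule.span F (Set.range E) := by
      rw [(hF.linearIndependent h.q8.two).span_eq_top_of_card_eq_finrank' h8]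
      exact Submodule.mem_top
    induction h2 using Submodule.span_induction with
    | mem w hw =>
      obtain ⟨j, rfl⟩ := hw
      rw [polar_symm, hv]
    | zero => rw [map_zero]
    | add a b _ _ ha hb => rw [map_add, ha, hb, add_zero]
    | smul c a _ ha => rw [map_smul, ha, smul_zero]
  t := by
    intro j k hjk
    obtain ⟨t, ht⟩ := exists_sg h.q8.gq h.q8.two hF hjk
    refine ⟨⟨t, hP (sg_mem_PM h.q8.two hF ht)⟩, fun v => ?_⟩
    rw [rH_apply]
    show rep (inc (⇑Q)) t v = _
    rw [ht, mono_sg h.q8.two hjk]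
  tr := by
    intro i j
    obtain ⟨τ, c, hτ⟩ := PP_trans i j
    obtain ⟨g, hg⟩ := H556.Om.exists_perm h.q8.gq h.q8.two hF (sign_pp τ false c)
    refine ⟨⟨g, hP (perm_mem_PM h.q8.two hF (pp_mem τ _ c) hg)⟩, ?_⟩
    rw [rH_apply]
    show rep (inc (⇑Q)) g (E i) = E j
    rw [hg, mono_e hF h.q8.two, one_smul, hτ]
  third := by
    intro j k
    have h1 : ∃ l, l ∉ ({j, k} : Finset (Fin 2 × A4)) := by
      by_contra hcon
      push Not at hcon
      have h3 : (Finset.univ : Finset (Fin 2 × A4)) ⊆ {j, k} := fun l _ => hcon l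
      have h4 := (Finset.card_le_card h3).trans Finset.card_le_two
      revert h4
      decide
    obtain ⟨l, hl⟩ := h1
    rw [Finset.mem_insert, Finset.mem_singleton, not_or] at hl
    exact ⟨l, hl.1, hl.2⟩

end Cfsg.Agent.H1.D4
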