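import Cfsg.Agent.H1.D4.Grp

/-!
# S4311, box C1: the socle (helper1)
-/

set_option autoImplicit false
set_option linter.unusedSectionVars false

namespace Cfsg.Agent.H1.D4

open Subgroup Cfsg.Agent.Lib.MinNormal Cfsg.Agent.Lib.MinNormalNonabelian
open scoped commutatorElement

variable {X : Type*} [Group X] [Finite X]

/-- a 2-group acting on a group of even order has a nontrivial fixed point -/
theorem fix_even {P A : Subgroup X} (hP : IsPGroup 2 P) (hPA : ∀ x ∈ P, ∀ a ∈ A, x * a * x⁻¹ ∈ A)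
    (h2 : 2 ∣ Nat.card A) : ∃ s ∈ A, s ≠ 1 ∧ ∀ x ∈ P, x * s = s * x := by
  classical
  have hf2 : Fact (Nat.Prime 2) := ⟨Nat.prime_two⟩
  let β : Type _ := {a : A // a * a = 1}
  have := Fintype.ofFinite A
  have hβ : 2 ∣ Nat.card β := by
    let φ : Function.End A := fun a => a⁻¹
    have h1 : φ ^ 2 ^ 1 = 1 := by
      funext a
      rw [pow_one, pow_two]
      exact inv_inv a
    have h3 := Equiv.Perm.card_fixedPoints_modEq h1
    have h4 : Nat.card β = Fintype.card (Function.fixedPoints φ) := by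
      rw [← Nat.card_eq_fintype_card]
      refine Nat.card_congr (Equiv.subtypeEquivRight fun a => ?_)
      show a * a = 1 ↔ a⁻¹ = a
      rw [inv_eq_iff_mul_eq_one]
    rw [h4]
    exact (Nat.modEq_zero_iff_dvd.1 (h3.symm.trans (by
      rw [← Nat.card_eq_fintype_card]; exact (Nat.modEq_zero_iff_dvd.2 h2))))
  let act : MulAction P β :=
    { smul := fun x a => ⟨⟨x * a.1 * (x : X)⁻¹, hPA x x.2 _ a.1.2⟩, Subtype.ext (by
        have h5 : ((a.1 : A) : X) * a.1 = 1 := congrArg Subtype.val a.2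
        show (x : X) * a.1 * (x : X)⁻¹ * (x * a.1 * (x : X)⁻¹) = 1
        calc (x : X) * a.1 * (x : X)⁻¹ * (x * a.1 * (x : X)⁻¹) = x * (a.1 * a.1) * (x : X)⁻¹ := by group
          _ = 1 := by rw [h5, mul_one, mul_inv_cancel])⟩
      one_smul := fun a => Subtype.ext (Subtype.ext (by
        show ((1 : P) : X) * a.1 * ((1 : P) : X)⁻¹ = a.1
        simp))
      mul_smul := fun x y a => Subtype.ext (Subtype.ext (by
        show ((x * y : P) : X) * a.1 * ((x * y : P) : X)⁻¹ = x * (y * a.1 * (y : X)⁻¹) * (x : X)⁻¹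
        rw [Subgroup.coe_mul]
        group)) }
  let o : β := ⟨1, one_mul 1⟩
  have ho : o ∈ MulAction.fixedPoints P β := by
    intro x
    refine Subtype.ext (Subtype.ext ?_)
    show (x : X) * ((1 : A) : X) * (x : X)⁻¹ = (1 : A)
    simp
  obtain ⟨b, hb, hne⟩ := hP.exists_fixed_point_of_prime_dvd_card_of_fixed_point β hβ ho
  refine ⟨b.1, b.1.2, fun h => hne (Subtype.ext (Subtype.ext h.symm)), fun x hx => ?_⟩
  have h6 := hb ⟨x, hx⟩
  have h7 : x * b.1 * x⁻¹ = (b.1 : X) := congrArg (fun c : β => ((c.1 : A) : X)) h6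
  exact mul_inv_eq_iff_eq_mul.1 h7

/-- nontrivial perfect groups have even order -/
theorem two_dvd_of_perf {A : Subgroup X} (hA : A ≠ ⊥) (hp : A ≤ ⁅A, A⁆) : 2 ∣ Nat.card A := by
  by_contra h
  have h1 : Odd (Nat.card A) := Nat.not_even_iff_odd.1 fun h' => h (even_iff_two_dvd.1 h')
  have h2 : Group.IsSolvable A := Cfsg.Agent.S0205.result h1
  have h3 : commutator A < ⊤ := by
    have : Nontrivial A := (Subgroup.nontrivial_iff_ne_bot A).2 hA
    exact Group.IsSolvable.commutator_lt_top_of_nontrivial A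
  apply h3.ne
  have h4 : (commutator A).map A.subtype = (⊤ : Subgroup A).map A.subtype := by
    rw [Subgroup.map_subtype_commutator, ← MonoidHom.range_eq_map, Subgroup.range_subtype]
    exact le_antisymm (by
      rw [Subgroup.commutator_le]
      exact fun a ha b hb => A.mul_mem (A.mul_mem (A.mul_mem ha hb) (A.inv_mem ha)) (A.inv_mem hb)) hp
  exact Subgroup.map_injective A.subtype_injective h4

/-- the members of `minSet N` are perfect -/
theorem perf_of_simple {T : Subgroup X} [IsSimpleGroup T] (hc : ∀ z ∈ T, (∀ t ∈ T, Commute z t) → z = 1) :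
    T ≤ ⁅T, T⁆ := by
  rcases (inferInstance : (commutator T).Normal).eq_bot_or_eq_top with h | h
  · exfalso
    obtain ⟨t, ht⟩ := exists_ne (1 : T)
    apply ht
    apply Subtype.ext
    refine hc t t.2 fun s hs => ?_
    have h1 : ⁅t, ⟨s, hs⟩⁆ ∈ commutator T := Subgroup.commutator_mem_commutator (Subgroup.mem_top _) (Subgroup.mem_top _)
    rw [h, Subgroup.mem_bot, commutatorElement_eq_one_iff_mul_comm] at h1
    exact congrArg Subtype.val h1
  · rw [← Subgroup.map_subtype_commutator, h, ← MonoidHom.range_eq_map, Subgroup.range_subtype]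

theorem simple_le {T : Subgroup X} [IsSimpleGroup T] {S : Subgroup X} (hS : S ≤ T) (h1 : S ≠ ⊥)
    (hn : ∀ t ∈ T, ∀ s ∈ S, t * s * t⁻¹ ∈ S) : T ≤ S := by
  have h2 : (S.subgroupOf T).Normal := ⟨fun s hs g => hn g g.2 s hs⟩
  rcases h2.eq_bot_or_eq_top with h | h
  · exfalso
    apply h1
    rw [Subgroup.subgroupOf_eq_bot] at h
    rw [eq_bot_iff]
    intro x hx
    exact Subgroup.disjoint_def.1 h hx (hS hx)
  · exact Subgroup.subgroupOf_eq_top.1 h

/-- the data of the socle -/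
structure Soc (N : Subgroup X) (s : Set (Subgroup X)) : Prop where
  nor : N.Normal
  cent : ∀ g, (∀ n ∈ N, g * n = n * g) → g = 1
  ne : s.Nonempty
  sup : sSup s = N
  simple : ∀ T ∈ s, IsSimpleGroup T
  perf : ∀ T ∈ s, T ≤ ⁅T, T⁆
  cen : ∀ T ∈ s, ∀ z ∈ T, (∀ t ∈ T, z * t = t * z) → z = 1
  comm : ∀ S ∈ s, ∀ T ∈ s, S ≠ T → ∀ a ∈ S, ∀ b ∈ T, a * b = b * a
  two : ∀ T ∈ s, 2 ∣ Nat.card T
  conj : ∀ S ∈ s, ∀ T ∈ s, ∃ g : X, T = S.map (MulAut.conj g).toMonoidHom
  map : ∀ T ∈ s, ∀ g : X, T.map (MulAut.conj g).toMonoidHom ∈ s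

theorem exists_min (C : Subgroup X) (hC : C.Normal) (hC1 : C ≠ ⊥) :
    ∃ N : Subgroup X, N.Normal ∧ N ≠ ⊥ ∧ N ≤ C ∧ ∀ M : Subgroup X, M.Normal → M ≤ N → M = ⊥ ∨ M = N := by
  have hfin : {N : Subgroup X | N.Normal ∧ N ≠ ⊥ ∧ N ≤ C}.Finite := Set.toFinite _
  obtain ⟨N, ⟨h1, h2, h3⟩, hmin⟩ := hfin.exists_minimal ⟨C, hC, hC1, le_refl _⟩
  refine ⟨N, h1, h2, h3, fun M hM hMN => ?_⟩
  by_cases h4 : M = ⊥
  · exact Or.inl h4
  · exact Or.inr (le_antisymm hMN (hmin ⟨hM, h4, hMN.trans h3⟩ hMN))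

/-- a nontrivial normal subgroup contains a perfect one -/
theorem exists_soc (hO : ∀ (R : Subgroup X) (r : ℕ), r.Prime → R.Normal → IsPGroup r R → R = ⊥)
    (C : Subgroup X) (hC : C.Normal) (hC1 : C ≠ ⊥) :
    ∃ N : Subgroup X, N.Normal ∧ N ≠ ⊥ ∧ N ≤ C ∧ (∀ M : Subgroup X, M.Normal → M ≤ N → M = ⊥ ∨ M = N) ∧
      ¬ ∀ x ∈ N, ∀ y ∈ N, Commute x y := by
  obtain ⟨N, h1, h2, h3, h4⟩ := exists_min C hC hC1
  refine ⟨N, h1, h2, h3, h4, fun h => ?_⟩
  obtain ⟨p, hp, hNp, -⟩ := abelian_structure N h2 h4 h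
  exact h2 (hO N p hp h1 hNp)

/-- a minimal normal nonabelian subgroup is perfect -/
theorem perf_of_min {N : Subgroup X} (hN : N.Normal) (hmin : ∀ M : Subgroup X, M.Normal → M ≤ N → M = ⊥ ∨ M = N)
    (hna : ¬ ∀ x ∈ N, ∀ y ∈ N, Commute x y) : N ≤ ⁅N, N⁆ := by
  rcases hmin ⁅N, N⁆ inferInstance (Subgroup.commutator_le_self N) with h | h
  · exfalso
    apply hna
    intro x hx y hy
    have h1 : ⁅x, y⁆ ∈ ⁅N, N⁆ := Subgroup.commutator_mem_commutator hx hy
    rw [h, Subgroup.mem_bot, commutatorElement_eq_one_iff_mul_comm] at h1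
    exact h1
  · exact h.ge

theorem mem_map_conj {T : Subgroup X} {g x : X} :
    x ∈ T.map (MulAut.conj g).toMonoidHom ↔ ∃ t ∈ T, g * t * g⁻¹ = x := Iff.rfl

/-- **the socle** -/
theorem exists_socle (hX : Nontrivial X) {P : Subgroup X} (hP : IsPGroup 2 P) {z : X}
    (hz : ∀ s, (∀ x ∈ P, x * s = s * x) → s = 1 ∨ s = z)
    (hO : ∀ (R : Subgroup X) (r : ℕ), r.Prime → R.Normal → IsPGroup r R → R = ⊥) :
    ∃ (N : Subgroup X) (s : Set (Subgroup X)), Soc N s ∧ ∃ k, s.ncard = 2 ^ k := by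
  have hf2 : Fact (Nat.Prime 2) := ⟨Nat.prime_two⟩
  have hzA : ∀ A : Subgroup X, (∀ x ∈ P, ∀ a ∈ A, x * a * x⁻¹ ∈ A) → 2 ∣ Nat.card A → z ∈ A ∧ z ≠ 1 := by
    intro A hA h2
    obtain ⟨s, hsA, hs1, hs⟩ := fix_even hP hA h2
    rcases hz s hs with h | h
    · exact absurd h hs1
    · rw [← h]; exact ⟨hsA, hs1⟩
  have hT : (⊤ : Subgroup X) ≠ ⊥ := by
    intro h
    obtain ⟨x, hx⟩ := exists_ne (1 : X)
    apply hx
    rw [← Subgroup.mem_bot, ← h]
    exact Subgroup.mem_top x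
  obtain ⟨N, hN, hN1, -, hmin, hna⟩ := exists_soc hO ⊤ inferInstance hT
  obtain ⟨hne, hind, hsup, hsim, hcen, hconj⟩ := nonabelian_structure N hmin hna
  have hNp := perf_of_min hN hmin hna
  have hN2 := two_dvd_of_perf hN1 hNp
  obtain ⟨hzN, hz1⟩ := hzA N (fun x _ a ha => hN.conj_mem a ha x) hN2
  have hcent : ∀ g, (∀ n ∈ N, g * n = n * g) → g = 1 := by
    by_contra hcon
    push Not at hcon
    obtain ⟨g, hg, hg1⟩ := hcon
    have hC : (Subgroup.centralizer (N : Set X)).Normal := inferInstance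
    have hC1 : Subgroup.centralizer (N : Set X) ≠ ⊥ := by
      intro h
      apply hg1
      have : g ∈ Subgroup.centralizer (N : Set X) := fun n hn => (hg n hn).symm
      rwa [h, Subgroup.mem_bot] at this
    obtain ⟨M, hM, hM1, hMC, hMmin, hMna⟩ := exists_soc hO _ hC hC1
    have hM2 := two_dvd_of_perf hM1 (perf_of_min hM hMmin hMna)
    obtain ⟨hzM, -⟩ := hzA M (fun x _ a ha => hM.conj_mem a ha x) hM2
    rcases hmin (N ⊓ Subgroup.centralizer (N : Set X)) inferInstance inf_le_left with h | h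
    · have h1 : z ∈ N ⊓ Subgroup.centralizer (N : Set X) := ⟨hzN, hMC hzM⟩
      rw [h, Subgroup.mem_bot] at h1
      exact hz1 h1
    · apply hna
      intro x hx y hy
      rw [← h] at hy
      exact hy.2 x hx
  have hcomm : ∀ S ∈ minSet N, ∀ T ∈ minSet N, S ≠ T → ∀ a ∈ S, ∀ b ∈ T, a * b = b * a := by
    intro S hS T hT hne a ha b hb
    exact commute_of_mem (K := N) hind (fun S hS => hS.2.2.1) (fun S hS => hS.1) hS hT hne ha hb
  have hperf : ∀ T ∈ minSet N, T ≤ ⁅T, T⁆ := by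
    intro T hT
    have := hsim T hT
    exact perf_of_simple (hcen T hT)
  have hne1 : ∀ T ∈ minSet N, T ≠ ⊥ := fun T hT => hT.2.1
  have htwo : ∀ T ∈ minSet N, 2 ∣ Nat.card T := fun T hT => two_dvd_of_perf (hne1 T hT) (hperf T hT)
  refine ⟨N, minSet N, ⟨hN, hcent, hne, hsup, hsim, hperf, fun T hT z hz h => hcen T hT z hz fun t ht => h t ht,
    hcomm, htwo, hconj, fun T hT g => map_conj_mem_minSet hT g⟩, ?_⟩
  -- transitivity
  let orb : Subgroup X → Set (Subgroup X) := fun T => {S | ∃ x ∈ P, S = T.map (MulAut.conj x).toMonoidHom}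
  have hself : ∀ T, T ∈ orb T := fun T => ⟨1, P.one_mem, (map_conj_one T).symm⟩
  have horb : ∀ T ∈ minSet N, orb T ⊆ minSet N := by
    rintro T hT _ ⟨x, -, rfl⟩
    exact map_conj_mem_minSet hT x
  have hzorb : ∀ T ∈ minSet N, z ∈ sSup (orb T) := by
    intro T hT
    refine (hzA _ ?_ ?_).1
    · intro x hx
      have h1 : sSup (orb T) ≤ (sSup (orb T)).comap (MulAut.conj x).toMonoidHom := by
        refine sSup_le ?_
        rintro _ ⟨y, hy, rfl⟩
        rw [← Subgroup.map_le_iff_le_comap, map_conj_map_conj]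
        exact le_sSup ⟨x * y, P.mul_mem hx hy, rfl⟩
      exact fun a ha => h1 ha
    · exact (htwo T hT).trans (Subgroup.card_dvd_of_le (le_sSup (hself T)))
  have hzc : ∀ T ∈ minSet N, ∀ U ∈ minSet N, U ∉ orb T → U ≤ Subgroup.centralizer {z} := by
    intro T hT U hU hUT u hu
    have h1 : sSup (orb T) ≤ Subgroup.centralizer {u} := by
      refine sSup_le fun S hS a ha => ?_
      rw [Subgroup.mem_centralizer_iff]
      intro v hv
      rw [Set.mem_singleton_iff.1 hv]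
      exact hcomm U hU S (horb T hT hS) (fun h => hUT (by rw [h]; exact hS)) u hu a ha
    rw [Subgroup.mem_centralizer_iff]
    intro v hv
    rw [Set.mem_singleton_iff.1 hv]
    have h2 := h1 (hzorb T hT)
    rw [Subgroup.mem_centralizer_iff] at h2
    exact (h2 u rfl).symm
  obtain ⟨T, hT⟩ := hne
  have hall : ∀ U ∈ minSet N, U ∈ orb T := by
    by_contra hcon
    push Not at hcon
    obtain ⟨T', hT', hT'o⟩ := hcon
    apply hz1
    apply hcent
    have h1 : N ≤ Subgroup.centralizer {z} := by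
      rw [← hsup]
      refine sSup_le fun U hU => ?_
      by_cases hUo : U ∈ orb T
      · refine hzc T' hT' U hU fun hUo' => hT'o ?_
        obtain ⟨x, hx, rfl⟩ := hUo
        obtain ⟨y, hy, he⟩ := hUo'
        refine ⟨y⁻¹ * x, P.mul_mem (P.inv_mem hy) hx, ?_⟩
        rw [← map_conj_map_conj, he, map_conj_map_conj, inv_mul_cancel, map_conj_one]
      · exact hzc T hT U hU hUo
    intro n hn
    have h2 := h1 hn
    rw [Subgroup.mem_centralizer_iff] at h2
    exact h2 z rfl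
  let act : MulAction P (minSet N) :=
    { smul := fun x U => ⟨U.1.map (MulAut.conj (x : X)).toMonoidHom, map_conj_mem_minSet U.2 _⟩
      one_smul := fun U => Subtype.ext (map_conj_one U.1)
      mul_smul := fun x y U => Subtype.ext (map_conj_map_conj (x : X) (y : X) U.1).symm }
  obtain ⟨n, hn⟩ := hP.card_orbit (⟨T, hT⟩ : minSet N)
  refine ⟨n, ?_⟩
  have h5 : MulAction.orbit P (⟨T, hT⟩ : minSet N) = Set.univ := by
    rw [Set.eq_univ_iff_forall]
    rintro ⟨U, hU⟩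
    obtain ⟨x, hx, he⟩ := hall U hU
    exact ⟨⟨x, hx⟩, Subtype.ext he.symm⟩
  rw [← hn, h5]
  exact (Nat.card_congr (Equiv.Set.univ _)).symm

end Cfsg.Agent.H1.D4
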