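import Cfsg.Agent.H1.D4.Four
import Cfsg.Agent.H1.D4.Pair
import Cfsg.Agent.H1.D4.Struct

/-!
# S4311, box C1: at most two components (helper1)
-/

set_option autoImplicit false
set_option linter.unusedSectionVars false

namespace Cfsg.Agent.H1.D4

open Module Subgroup Cfsg.Agent.Lib.MinNormal Cfsg.Agent.Lib.MinNormalNonabelian

variable {F : Type*} [Field F] {V : Type*} [AddCommGroup V] [Module F V] {G : Type*} [Group G] {X : Type*} [Group X]

/-- the standing hypotheses -/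
structure Cx (ρ : Representation F G V) (B : LinearMap.BilinForm F V) (f : G →* X) : Prop where
  h2 : (2 : F) ≠ 0
  dim : finrank F V = 8
  symm : ∀ u v, B u v = B v u
  nd : ∀ u, (∀ v, B u v = 0) → u = 0
  inv : ∀ (g : G) (u v : V), B (ρ g u) (ρ g v) = B u v
  surj : Function.Surjective f
  ker : ∀ g, f g = 1 ↔ (∀ v, ρ g v = v) ∨ ∀ v, ρ g v = -v
  inj : ∀ g, (∀ v, ρ g v = v) → g = 1
  char : (Nat.card G : F) ≠ 0

variable {ρ : Representation F G V} {B : LinearMap.BilinForm F V} {f : G →* X}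

theorem Cx.eq (h : Cx ρ B f) {a b : G} (hab : ∀ v, ρ a v = ρ b v) : a = b := by
  have h1 : b⁻¹ * a = 1 := h.inj _ fun v => by rw [rho_mul, hab, inv_rho]
  exact (inv_mul_eq_one.1 h1).symm

theorem Cx.hcen (h : Cx ρ B f) (z : G) (hz : f z = 1) (g : G) : z * g = g * z := by
  refine h.eq fun v => ?_
  rw [rho_mul, rho_mul]
  rcases (h.ker z).1 hz with h1 | h1
  · rw [h1, h1]
  · rw [h1, h1, map_neg]

theorem Cx.fd (h : Cx ρ B f) : FiniteDimensional F V := by
  apply FiniteDimensional.of_finrank_pos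
  rw [h.dim]
  norm_num

theorem Cx.ss [Finite G] (h : Cx ρ B f) (g : G) (v : V) (hg : ρ g (ρ g v - v) = ρ g v - v) : ρ g v = v := by
  obtain ⟨u, hu⟩ : ∃ u, u = ρ g v - v := ⟨_, rfl⟩
  rw [← hu] at hg
  have h1 : ρ g v = v + u := by rw [hu, add_sub_cancel]
  have h3 : ∀ n : ℕ, ρ (g ^ n) v = v + (n : F) • u := by
    intro n
    induction n with
    | zero => rw [pow_zero, map_one, Module.End.one_apply, Nat.cast_zero, zero_smul, add_zero]
    | succ n ih =>
      rw [pow_succ', rho_mul, ih, map_add, map_smul, hg, h1, Nat.cast_succ, add_smul, one_smul, add_assoc, add_comm u]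
  have h4 := h3 (Nat.card G)
  rw [pow_card_eq_one', map_one, Module.End.one_apply] at h4
  have h5 : (Nat.card G : F) • u = 0 := by
    have := h4.symm
    rwa [add_eq_left] at this
  have h6 : u = 0 := (smul_eq_zero.1 h5).resolve_left h.char
  rw [h1, h6, add_zero]

theorem Cx.qs (h : Cx ρ B f) [Finite X] {N : Subgroup X} {s : Set (Subgroup X)} (hS : Soc N s) {T : Subgroup X}
    (hT : T ∈ s) : Qs f (kt f T) := by
  have := hS.simple T hT
  exact qs_kt h.surj h.hcen (hS.perf T hT) (fun S h1 h2 h3 => simple_le h1 h2 h3) (hS.cen T hT)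

theorem Cx.le_two [Finite X] (h : Cx ρ B f) {N : Subgroup X} {s : Set (Subgroup X)} (hS : Soc N s)
    (h4 : 4 ≤ s.ncard) : False := by
  classical
  have := h.fd
  have hf2 : Fact (Nat.Prime 2) := ⟨Nat.prime_two⟩
  have hsf : Finite s := Subtype.finite
  have := Fintype.ofFinite s
  have hc4 : Fintype.card (Fin 4) ≤ Fintype.card s := by
    rw [Fintype.card_fin, ← Nat.card_eq_fintype_card]
    exact h4
  obtain ⟨e⟩ := Function.Embedding.nonempty_of_card_le hc4
  obtain ⟨T, hT⟩ : ∃ T : Fin 4 → Subgroup X, ∀ i, T i = (e i).1 := ⟨fun i => (e i).1, fun i => rfl⟩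
  have hTs : ∀ i, T i ∈ s := fun i => by rw [hT]; exact (e i).2
  have hTi : ∀ i j, i ≠ j → T i ≠ T j := fun i j hij h => hij (e.injective (Subtype.ext (by rw [← hT, ← hT]; exact h)))
  obtain ⟨t, ht⟩ := exists_prime_orderOf_dvd_card' (G := T 0) 2 (hS.two _ (hTs 0))
  have htt : (t : X) * t = 1 := by
    have h1 : t ^ 2 = 1 := by rw [← ht]; exact pow_orderOf_eq_one t
    rw [pow_two] at h1
    exact congrArg Subtype.val h1
  have ht1 : (t : X) ≠ 1 := by
    intro h
    have h1 : t = 1 := Subtype.ext h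
    rw [h1, orderOf_one] at ht
    norm_num at ht
  obtain ⟨k, hk, hkt⟩ := lift_of h.surj (hS.perf _ (hTs 0)) t.2
  have hg : ∀ i, ∃ g : G, T i = (T 0).map (MulAut.conj (f g)).toMonoidHom := by
    intro i
    obtain ⟨x, hx⟩ := hS.conj _ (hTs 0) _ (hTs i)
    obtain ⟨g, rfl⟩ := h.surj x
    exact ⟨g, hx⟩
  choose g hg using hg
  have hy : ∀ i, g i * k * (g i)⁻¹ ∈ kt f (T i) := fun i =>
    kt_conj (fun s hs => by rw [hg i]; exact ⟨s, hs, rfl⟩) k hk
  have hy1 : ∀ i, f (g i * k * (g i)⁻¹) ≠ 1 := by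
    intro i h1
    rw [map_mul, map_mul, map_inv, hkt, mul_inv_eq_one, mul_eq_left] at h1
    exact ht1 h1
  have hcc : ∀ i j, i ≠ j → ∀ a ∈ kt f (T i), ∀ b ∈ kt f (T j), a * b = b * a := fun i j hij =>
    kt_comm h.hcen (hS.comm _ (hTs i) _ (hTs j) (hTi i j hij))
  have hkk : f (k * k) = 1 := by rw [map_mul, hkt, htt]
  have hsq : ∀ i v, ρ (g i * k * (g i)⁻¹) (ρ (g i * k * (g i)⁻¹) v) = ρ (g i) (ρ (k * k) (ρ (g i)⁻¹ v)) := by
    intro i v
    rw [← rho_mul, ← rho_mul, ← rho_mul]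
    congr 2
    group
  rcases (h.ker _).1 hkk with h1 | h1
  · refine no_four_pos h.h2 h.dim.le (fun i => h.qs hS (hTs i)) hcc hy hy1 (fun g hg => (h.ker g).2 (Or.inl hg)) ?_
    intro i v
    rw [hsq, h1, rho_inv]
  · refine no_four_neg h.h2 h.dim.le h.symm h.nd h.inv (fun i => h.qs hS (hTs i)) hcc hy hy1
      (fun g hg => (h.ker g).2 (Or.inl hg)) ?_
    intro i v
    rw [hsq, h1, map_neg, rho_inv]

end Cfsg.Agent.H1.D4
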