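import Cfsg.Agent.H1.D4.Lin
import Cfsg.Agent.Lib.MinNormalNonabelian
import Cfsg.Agent.S0205

/-!
# S4311, box C1: group theory (helper1)
-/

set_option autoImplicit false

namespace Cfsg.Agent.H1.D4

open Subgroup

section lift

variable {G : Type*} [Group G] {X : Type*} [Group X] {f : G →* X}

/-- the derived subgroup of the preimage -/
def kt (f : G →* X) (T : Subgroup X) : Subgroup G := ⁅T.comap f, T.comap f⁆

theorem kt_le (T : Subgroup X) : kt f T ≤ T.comap f := by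
  rw [kt, Subgroup.commutator_le]
  intro a ha b hb
  exact (T.comap f).mul_mem ((T.comap f).mul_mem ((T.comap f).mul_mem ha hb) ((T.comap f).inv_mem ha))
    ((T.comap f).inv_mem hb)

/-- commutators of elements congruent modulo the central kernel -/
theorem comm_eq (hcen : ∀ z, f z = 1 → ∀ g, z * g = g * z) {a b a' b' : G} (h1 : f a = f a') (h2 : f b = f b') :
    a * b * a⁻¹ * b⁻¹ = a' * b' * a'⁻¹ * b'⁻¹ := by
  obtain ⟨z, hz⟩ : ∃ z, z = a'⁻¹ * a := ⟨_, rfl⟩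
  obtain ⟨w, hw⟩ : ∃ w, w = b'⁻¹ * b := ⟨_, rfl⟩
  have hz1 : f z = 1 := by rw [hz, map_mul, map_inv, h1, inv_mul_cancel]
  have hw1 : f w = 1 := by rw [hw, map_mul, map_inv, h2, inv_mul_cancel]
  have ha : a = a' * z := by rw [hz]; group
  have hb : b = b' * w := by rw [hw]; group
  have hz2 := hcen z hz1
  have hw2 := hcen w hw1
  rw [ha, hb]
  calc a' * z * (b' * w) * (a' * z)⁻¹ * (b' * w)⁻¹
      = a' * (z * b') * w * z⁻¹ * a'⁻¹ * w⁻¹ * b'⁻¹ := by group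
    _ = a' * b' * (z * w) * z⁻¹ * a'⁻¹ * w⁻¹ * b'⁻¹ := by rw [hz2 b']; group
    _ = a' * b' * (w * a'⁻¹) * w⁻¹ * b'⁻¹ := by rw [hz2 w]; group
    _ = a' * b' * a'⁻¹ * b'⁻¹ := by rw [hw2 a'⁻¹]; group

theorem kt_le_iff {T : Subgroup X} {A : Subgroup G} :
    kt f T ≤ A ↔ ∀ a, f a ∈ T → ∀ b, f b ∈ T → a * b * a⁻¹ * b⁻¹ ∈ A := by
  rw [kt, Subgroup.commutator_le]
  exact ⟨fun h a ha b hb => h a ha b hb, fun h a ha b hb => h a ha b hb⟩

theorem comm_mem_kt {T : Subgroup X} {a b : G} (ha : f a ∈ T) (hb : f b ∈ T) : a * b * a⁻¹ * b⁻¹ ∈ kt f T :=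
  Subgroup.commutator_mem_commutator (g₁ := a) (g₂ := b) ha hb

/-- lifting -/
theorem lift_of (hf : Function.Surjective f) {T : Subgroup X} (hT : T ≤ ⁅T, T⁆) {t : X} (ht : t ∈ T) :
    ∃ k ∈ kt f T, f k = t := by
  have h1 : T ≤ (kt f T).map f := by
    refine hT.trans ?_
    rw [Subgroup.commutator_le]
    intro a ha b hb
    obtain ⟨a', rfl⟩ := hf a
    obtain ⟨b', rfl⟩ := hf b
    exact ⟨_, comm_mem_kt ha hb, by simp only [map_mul, map_inv, commutatorElement_def]⟩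
  obtain ⟨k, hk, he⟩ := h1 ht
  exact ⟨k, hk, he⟩

/-- the lift is quasisimple -/
theorem qs_kt (hf : Function.Surjective f) (hcen : ∀ z, f z = 1 → ∀ g, z * g = g * z) {T : Subgroup X}
    (hT : T ≤ ⁅T, T⁆) (hs : ∀ S ≤ T, S ≠ ⊥ → (∀ t ∈ T, ∀ s ∈ S, t * s * t⁻¹ ∈ S) → T ≤ S)
    (hc : ∀ z ∈ T, (∀ t ∈ T, z * t = t * z) → z = 1) : Qs f (kt f T) := by
  refine ⟨?_, ?_, ?_⟩
  · rw [kt_le_iff]
    intro a ha b hb
    obtain ⟨a', ha', he⟩ := lift_of hf hT ha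
    obtain ⟨b', hb', he'⟩ := lift_of hf hT hb
    rw [comm_eq hcen he.symm he'.symm]
    exact Subgroup.commutator_mem_commutator ha' hb'
  · rintro A hA hAn ⟨a₀, ha₀, h1⟩
    have h2 : T ≤ A.map f := by
      refine hs _ ?_ ?_ ?_
      · rintro _ ⟨a, ha, rfl⟩
        exact kt_le T (hA ha)
      · intro h
        apply h1
        have h3 : f a₀ ∈ A.map f := ⟨a₀, ha₀, rfl⟩
        rwa [h, Subgroup.mem_bot] at h3
      · rintro t ht _ ⟨a, ha, rfl⟩
        obtain ⟨k, hk, rfl⟩ := lift_of hf hT ht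
        exact ⟨k * a * k⁻¹, hAn k hk a ha, by rw [map_mul, map_mul, map_inv]⟩
    rw [kt_le_iff]
    intro a ha b hb
    obtain ⟨a', ha', he⟩ := h2 ha
    obtain ⟨b', hb', he'⟩ := h2 hb
    rw [comm_eq hcen he.symm he'.symm]
    exact A.mul_mem (A.mul_mem (A.mul_mem ha' hb') (A.inv_mem ha')) (A.inv_mem hb')
  · intro y hy h1
    by_contra hcon
    push Not at hcon
    apply h1
    refine hc _ (kt_le T hy) fun t ht => ?_
    obtain ⟨k, hk, rfl⟩ := lift_of hf hT ht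
    have h3 := hcon k hk
    rw [map_mul, map_mul, map_mul, map_inv, map_inv, mul_inv_eq_one, mul_inv_eq_iff_eq_mul] at h3
    exact h3.symm

/-- lifts of commuting subgroups commute -/
theorem kt_comm (hcen : ∀ z, f z = 1 → ∀ g, z * g = g * z) {S T : Subgroup X}
    (h : ∀ a ∈ S, ∀ b ∈ T, a * b = b * a) : ∀ a ∈ kt f S, ∀ b ∈ kt f T, a * b = b * a := by
  have h1 : ∀ b, f b ∈ T → kt f S ≤ Subgroup.centralizer {b} := by
    intro b hb
    rw [kt_le_iff]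
    intro a ha a' ha'
    rw [Subgroup.mem_centralizer_iff]
    intro b' hb'
    rw [Set.mem_singleton_iff.1 hb']
    have h2 : ∀ c, f c ∈ S → f (b * c * b⁻¹) = f c := by
      intro c hc
      rw [map_mul, map_mul, map_inv, ← h _ hc _ hb, mul_inv_cancel_right]
    have h3 := comm_eq hcen (h2 a ha) (h2 a' ha')
    calc b * (a * a' * a⁻¹ * a'⁻¹) = b * a * b⁻¹ * (b * a' * b⁻¹) * (b * a * b⁻¹)⁻¹ * (b * a' * b⁻¹)⁻¹ * b := by group
      _ = a * a' * a⁻¹ * a'⁻¹ * b := by rw [h3]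
  intro a ha b hb
  have h2 := h1 b (kt_le T hb) ha
  rw [Subgroup.mem_centralizer_iff] at h2
  exact (h2 b rfl).symm

/-- conjugation of lifts -/
theorem kt_conj {S T : Subgroup X} {g : G} (h : ∀ s ∈ S, f g * s * (f g)⁻¹ ∈ T) : ∀ k ∈ kt f S, g * k * g⁻¹ ∈ kt f T := by
  have h1 : kt f S ≤ (kt f T).comap (MulAut.conj g).toMonoidHom := by
    rw [kt_le_iff]
    intro a ha b hb
    show g * (a * b * a⁻¹ * b⁻¹) * g⁻¹ ∈ kt f T
    have h2 : g * (a * b * a⁻¹ * b⁻¹) * g⁻¹ = (g * a * g⁻¹) * (g * b * g⁻¹) * (g * a * g⁻¹)⁻¹ * (g * b * g⁻¹)⁻¹ := by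
      group
    rw [h2]
    exact comm_mem_kt (by rw [map_mul, map_mul, map_inv]; exact h _ ha) (by rw [map_mul, map_mul, map_inv]; exact h _ hb)
  exact fun k hk => h1 hk

end lift

end Cfsg.Agent.H1.D4
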