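import Mathlib

/-!
# S4311, box C1: linear algebra (helper1)

`G` acts on `V` by isometries; `π : G →* X`; `Qs π K`: the subgroup `K` is perfect and quasisimple modulo `ker π`.
-/

set_option autoImplicit false

namespace Cfsg.Agent.H1.D4

open Module

/-! ### perfect groups -/

section group

variable {G : Type*} [Group G] {X : Type*} [Group X]

/-- a homomorphism of a perfect group with commuting values is trivial -/
theorem perfect_hom {K : Subgroup G} (h : K ≤ ⁅K, K⁆) {M : Type*} [Monoid M] (f : K →* M)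
    (hc : ∀ a b, f a * f b = f b * f a) (k : K) : f k = 1 := by
  have h1 : ⁅K, K⁆ ≤ f.ker.map K.subtype := by
    rw [Subgroup.commutator_le]
    intro a ha b hb
    refine ⟨(⟨a, ha⟩ : K) * ⟨b, hb⟩ * (⟨a, ha⟩ : K)⁻¹ * (⟨b, hb⟩ : K)⁻¹, ?_, ?_⟩
    · change f ((⟨a, ha⟩ : K) * ⟨b, hb⟩ * (⟨a, ha⟩ : K)⁻¹ * (⟨b, hb⟩ : K)⁻¹) = 1
      rw [map_mul, map_mul, map_mul, hc ⟨a, ha⟩ ⟨b, hb⟩, mul_assoc (f ⟨b, hb⟩), ← map_mul,
        mul_inv_cancel, map_one, mul_one, ← map_mul, mul_inv_cancel, map_one]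
    · rfl
  obtain ⟨x, hx, he⟩ := h1 (h k.2)
  have : x = k := Subtype.ext he
  rw [← this]
  exact hx

/-- `K` is perfect, and quasisimple modulo `ker π` -/
structure Qs (π : G →* X) (K : Subgroup G) : Prop where
  perf : K ≤ ⁅K, K⁆
  max : ∀ A : Subgroup G, A ≤ K → (∀ k ∈ K, ∀ a ∈ A, k * a * k⁻¹ ∈ A) → (∃ a ∈ A, π a ≠ 1) → K ≤ A
  cen : ∀ y ∈ K, π y ≠ 1 → ∃ k ∈ K, π (k * y * k⁻¹ * y⁻¹) ≠ 1

end group

section rep

variable {F : Type*} [Field F] {V : Type*} [AddCommGroup V] [Module F V] {G : Type*} [Group G] {X : Type*} [Group X]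
  (ρ : Representation F G V)

/-- `K` leaves `U` invariant -/
def Iv (K : Subgroup G) (U : Submodule F V) : Prop := ∀ k ∈ K, ∀ u ∈ U, ρ k u ∈ U

/-- `K` is trivial on `U` -/
def Tv (K : Subgroup G) (U : Submodule F V) : Prop := ∀ k ∈ K, ∀ u ∈ U, ρ k u = u

variable {ρ}

theorem rho_inv (g : G) (v : V) : ρ g (ρ g⁻¹ v) = v := by
  rw [← Module.End.mul_apply, ← map_mul, mul_inv_cancel, map_one, Module.End.one_apply]

theorem inv_rho (g : G) (v : V) : ρ g⁻¹ (ρ g v) = v := by
  rw [← Module.End.mul_apply, ← map_mul, inv_mul_cancel, map_one, Module.End.one_apply]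

theorem rho_mul (g h : G) (v : V) : ρ (g * h) v = ρ g (ρ h v) := by
  rw [map_mul, Module.End.mul_apply]

theorem Tv.inv {K : Subgroup G} {U : Submodule F V} (h : Tv ρ K U) : Iv ρ K U := fun k hk u hu => by
  rw [h k hk u hu]; exact hu

variable {π : G →* X} {K : Subgroup G} {U : Submodule F V}

/-- **dichotomy** -/
theorem Qs.tv_of_one (h : Qs π K) (hU : Iv ρ K U) {a : G} (ha : a ∈ K) (h1 : π a ≠ 1) (hau : ∀ u ∈ U, ρ a u = u) :
    Tv ρ K U := by
  let A : Subgroup G :=
    { carrier := {k | k ∈ K ∧ ∀ u ∈ U, ρ k u = u}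
      one_mem' := ⟨K.one_mem, fun u _ => by rw [map_one, Module.End.one_apply]⟩
      mul_mem' := by
        rintro x y ⟨hx, hx'⟩ ⟨hy, hy'⟩
        exact ⟨K.mul_mem hx hy, fun u hu => by rw [rho_mul, hy' u hu, hx' u hu]⟩
      inv_mem' := by
        rintro x ⟨hx, hx'⟩
        refine ⟨K.inv_mem hx, fun u hu => ?_⟩
        have := inv_rho (ρ := ρ) x u
        rwa [hx' u hu] at this }
  have hA : K ≤ A := h.max A (fun x hx => hx.1) (fun k hk a ha => ⟨K.mul_mem (K.mul_mem hk ha.1) (K.inv_mem hk),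
    fun u hu => by
      rw [rho_mul, rho_mul, ha.2 _ (hU _ (K.inv_mem hk) u hu), rho_inv]⟩) ⟨a, ⟨ha, hau⟩, h1⟩
  exact fun k hk u hu => (hA hk).2 u hu

theorem Qs.tv_of_comm (h : Qs π K) (hU : Iv ρ K U) {y : G} (hy : y ∈ K) (h1 : π y ≠ 1)
    (hc : ∀ k ∈ K, ∀ u ∈ U, ρ k (ρ y u) = ρ y (ρ k u)) : Tv ρ K U := by
  obtain ⟨k, hk, hne⟩ := h.cen y hy h1
  refine h.tv_of_one hU (K.mul_mem (K.mul_mem (K.mul_mem hk hy) (K.inv_mem hk)) (K.inv_mem hy)) hne fun u hu => ?_
  have h2 : ρ y⁻¹ u ∈ U := hU _ (K.inv_mem hy) u hu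
  have h3 : ρ k⁻¹ (ρ y⁻¹ u) ∈ U := hU _ (K.inv_mem hk) _ h2
  rw [rho_mul, rho_mul, rho_mul, hc k hk _ h3, rho_inv, rho_inv]

/-- the restriction of a representation to an invariant subspace -/
def rst (ρ : Representation F G V) (K : Subgroup G) (U : Submodule F V) (hU : Iv ρ K U) : K →* Module.End F U where
  toFun k := (ρ k).restrict (hU k k.2)
  map_one' := by ext u; simp
  map_mul' a b := by
    ext u
    change ρ ((a : G) * b) u = ρ a (ρ b u)
    exact rho_mul _ _ _

theorem rst_apply (hU : Iv ρ K U) (k : K) (u : U) : ((rst ρ K U hU k u : U) : V) = ρ k u := rfl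

theorem det_rst (hp : K ≤ ⁅K, K⁆) (hU : Iv ρ K U) (k : K) : LinearMap.det (rst ρ K U hU k) = 1 :=
  perfect_hom hp ((LinearMap.det : Module.End F U →* F).comp (rst ρ K U hU)) (fun _ _ => mul_comm _ _) k

/-! ### perfect groups in dimension two -/

theorem prop_aux {α β γ a b c d : F} (hdet : a * d - b * c = 1)
    (e11 : α * a * a + 2 * β * a * c + γ * c * c = α)
    (e12 : α * a * b + β * (a * d + b * c) + γ * c * d = β)
    (e22 : α * b * b + 2 * β * b * d + γ * d * d = γ) :
    α * b = - (γ * c) ∧ 2 * β * b = γ * (a - d) ∧ 2 * β * c = - (α * (a - d)) := by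
  refine ⟨?_, ?_, ?_⟩
  · linear_combination (-b) * e11 + a * e12 - (β * a + γ * c) * hdet
  · linear_combination (-b) * e12 + a * e22 - (β * b + γ * d) * hdet
  · linear_combination d * e11 - c * e12 - (α * a + β * c) * hdet

theorem comm_aux (h2 : (2 : F) ≠ 0) {α β γ a b c d a' b' c' d' : F} (hne : α * γ - β * β ≠ 0)
    (h : α * b = - (γ * c) ∧ 2 * β * b = γ * (a - d) ∧ 2 * β * c = - (α * (a - d)))
    (h' : α * b' = - (γ * c') ∧ 2 * β * b' = γ * (a' - d') ∧ 2 * β * c' = - (α * (a' - d'))) :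
    b * c' = b' * c ∧ b' * (a - d) = b * (a' - d') ∧ c * (a' - d') = c' * (a - d) := by
  obtain ⟨p1, p2, p3⟩ := h
  obtain ⟨q1, q2, q3⟩ := h'
  by_cases hα : α = 0
  · by_cases hγ : γ = 0
    · have hβ : β ≠ 0 := by rintro rfl; exact hne (by rw [hα]; ring)
      rw [hγ] at p2 q2
      rw [hα] at p3 q3
      have h2β : 2 * β ≠ 0 := mul_ne_zero h2 hβ
      have b0 : b = 0 := (mul_eq_zero.1 (by linear_combination p2 : 2 * β * b = 0)).resolve_left h2β
      have b0' : b' = 0 := (mul_eq_zero.1 (by linear_combination q2 : 2 * β * b' = 0)).resolve_left h2β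
      have c0 : c = 0 := (mul_eq_zero.1 (by linear_combination p3 : 2 * β * c = 0)).resolve_left h2β
      have c0' : c' = 0 := (mul_eq_zero.1 (by linear_combination q3 : 2 * β * c' = 0)).resolve_left h2β
      rw [b0, b0', c0, c0']
      exact ⟨by ring, by ring, by ring⟩
    · refine ⟨?_, ?_, ?_⟩
      · apply mul_left_cancel₀ hγ; linear_combination (-b') * p1 + b * q1
      · apply mul_left_cancel₀ hγ; linear_combination (-b') * p2 + b * q2
      · apply mul_left_cancel₀ (mul_ne_zero hγ hγ)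
        linear_combination (2 * β * b') * p1 - (2 * β * b) * q1 + (-γ * c') * (-p2) + (γ * c) * (-q2)
  · refine ⟨?_, ?_, ?_⟩
    · apply mul_left_cancel₀ hα; linear_combination c' * p1 - c * q1
    · apply mul_left_cancel₀ (mul_ne_zero hα hα)
      linear_combination (α * (a - d)) * q1 - (α * (a' - d')) * p1 - (γ * c') * p3 + (γ * c) * q3
    · apply mul_left_cancel₀ hα; linear_combination c * q3 - c' * p3

/-- **a perfect group of isometries of a nondegenerate space of dimension at most `2` is trivial** -/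
theorem tv_of_two [FiniteDimensional F V] (h2 : (2 : F) ≠ 0) {B : LinearMap.BilinForm F V}
    (hs : ∀ u v, B u v = B v u) (hB : ∀ (g : G) (u v : V), B (ρ g u) (ρ g v) = B u v)
    (hp : K ≤ ⁅K, K⁆) (hU : Iv ρ K U) (hn : ∀ u ∈ U, (∀ v ∈ U, B u v = 0) → u = 0) (hd : finrank F U ≤ 2) :
    Tv ρ K U := by
  have key : ∀ k, rst ρ K U hU k = 1 := by
    apply perfect_hom hp
    intro x y
    obtain ⟨n, hn'⟩ : ∃ n, finrank F U = n := ⟨_, rfl⟩
    let bs := finBasisOfFinrankEq F U hn'
    apply (LinearMap.toMatrix bs bs).injective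
    rw [Module.End.mul_eq_comp, Module.End.mul_eq_comp, LinearMap.toMatrix_comp bs bs bs,
      LinearMap.toMatrix_comp bs bs bs]
    obtain ⟨M, hM⟩ : ∃ M, M = LinearMap.toMatrix bs bs (rst ρ K U hU x) := ⟨_, rfl⟩
    obtain ⟨N, hN⟩ : ∃ N, N = LinearMap.toMatrix bs bs (rst ρ K U hU y) := ⟨_, rfl⟩
    rw [← hM, ← hN]
    have hn2 : n = 0 ∨ n = 1 ∨ n = 2 := by omega
    have hact : ∀ (z : K) (j : Fin n), rst ρ K U hU z (bs j) =
        ∑ i, LinearMap.toMatrix bs bs (rst ρ K U hU z) i j • bs i := fun z j => by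
      simp only [LinearMap.toMatrix_apply]
      exact (bs.sum_repr _).symm
    have hdet : ∀ z : K, (LinearMap.toMatrix bs bs (rst ρ K U hU z)).det = 1 := fun z => by
      rw [LinearMap.det_toMatrix]; exact det_rst hp hU z
    rcases hn2 with rfl | rfl | rfl
    · ext i; exact i.elim0
    · ext i j
      rw [Subsingleton.elim i 0, Subsingleton.elim j 0]
      simp only [Matrix.mul_apply, Finset.univ_unique, Finset.sum_singleton, Fin.default_eq_zero]
      exact mul_comm _ _
    · obtain ⟨α, hα⟩ : ∃ α, α = B (bs 0 : V) (bs 0 : V) := ⟨_, rfl⟩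
      obtain ⟨β, hβ⟩ : ∃ β, β = B (bs 0 : V) (bs 1 : V) := ⟨_, rfl⟩
      obtain ⟨γ, hγ⟩ : ∃ γ, γ = B (bs 1 : V) (bs 1 : V) := ⟨_, rfl⟩
      have hrel : ∀ z : K, ∀ L, L = LinearMap.toMatrix bs bs (rst ρ K U hU z) →
          α * L 0 1 = - (γ * L 1 0) ∧ 2 * β * L 0 1 = γ * (L 0 0 - L 1 1) ∧
            2 * β * L 1 0 = - (α * (L 0 0 - L 1 1)) := by
        intro z L hL
        have e0 := congrArg Subtype.val (hact z 0)
        have e1 := congrArg Subtype.val (hact z 1)
        rw [rst_apply, ← hL, Fin.sum_univ_two] at e0 e1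
        simp only [Submodule.coe_add, Submodule.coe_smul] at e0 e1
        have d := hdet z
        rw [← hL, Matrix.det_fin_two] at d
        have b00 := hB z (bs 0) (bs 0)
        have b01 := hB z (bs 0) (bs 1)
        have b11 := hB z (bs 1) (bs 1)
        rw [e0] at b00 b01
        rw [e1] at b01 b11
        simp only [map_add, map_smul, LinearMap.add_apply, LinearMap.smul_apply, smul_eq_mul,
          hs (bs 1 : V) (bs 0 : V), ← hα, ← hβ, ← hγ] at b00 b01 b11
        exact prop_aux (a := L 0 0) (b := L 0 1) (c := L 1 0) (d := L 1 1) (by linear_combination d)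
          (by linear_combination b00) (by linear_combination b01) (by linear_combination b11)
      have hne : α * γ - β * β ≠ 0 := by
        intro h0
        -- a vector in the radical
        have hrad : ∀ s t : F, s * α + t * β = 0 → s * β + t * γ = 0 → s = 0 ∧ t = 0 := by
          intro s t h3 h4
          have h5 : ((s • bs 0 + t • bs 1 : U) : V) = 0 := by
            apply hn _ (s • bs 0 + t • bs 1 : U).2
            intro v hv
            have h6 := bs.sum_repr ⟨v, hv⟩
            rw [Fin.sum_univ_two] at h6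
            have h7 := congrArg Subtype.val h6
            simp only [Submodule.coe_add, Submodule.coe_smul] at h7
            rw [← h7]
            simp only [Submodule.coe_add, Submodule.coe_smul, map_add, map_smul, LinearMap.add_apply,
              LinearMap.smul_apply, smul_eq_mul, hs (bs 1 : V) (bs 0 : V), ← hα, ← hβ, ← hγ]
            linear_combination (bs.repr ⟨v, hv⟩ 0) * h3 + (bs.repr ⟨v, hv⟩ 1) * h4
          have h6 : s • bs 0 + t • bs 1 = (0 : U) := Subtype.ext h5
          have h7 := (LinearIndependent.pair_iff.1 (by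
            have := bs.linearIndependent
            have h8 : (![bs 0, bs 1] : Fin 2 → U) = bs := by
              ext i; fin_cases i <;> rfl
            rw [h8]; exact this)) s t h6
          exact h7
        obtain ⟨-, hα0⟩ := hrad β (-α) (by ring) (by linear_combination -h0)
        have hα1 : α = 0 := neg_eq_zero.1 hα0
        have hβ0 : β = 0 := by
          rw [hα1] at h0
          have : β * β = 0 := by linear_combination -h0
          exact mul_self_eq_zero.1 this
        have := (hrad 1 0 (by rw [hα1]; ring) (by rw [hβ0]; ring)).1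
        exact one_ne_zero this
      obtain ⟨k1, k2, k3⟩ := comm_aux h2 hne (hrel x M hM) (hrel y N hN)
      ext i j
      fin_cases i <;> fin_cases j
      · simp only [Matrix.mul_apply, Fin.sum_univ_two, Fin.zero_eta, Fin.isValue]
        linear_combination k1
      · simp only [Matrix.mul_apply, Fin.sum_univ_two, Fin.zero_eta, Fin.isValue, Fin.mk_one]
        linear_combination k2
      · simp only [Matrix.mul_apply, Fin.sum_univ_two, Fin.zero_eta, Fin.isValue, Fin.mk_one]
        linear_combination k3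
      · simp only [Matrix.mul_apply, Fin.sum_univ_two, Fin.isValue, Fin.mk_one]
        linear_combination -k1
  intro k hk u hu
  have h3 := congrArg (fun f : Module.End F U => ((f ⟨u, hu⟩ : U) : V)) (key ⟨k, hk⟩)
  exact h3

end rep

end Cfsg.Agent.H1.D4
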